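import Mathlib
import Cfsg.Agent.H277.EM.Cover

/-!
# S2243: subgroups with abelian preimage (helper767)

`π : L → S` a central extension (any kernel). `LC π a b` : all lifts of `a` and `b` commute.

* `LC.of_comm`, `LC.self`, `LC.symm`, `LC.mul`;
* `em_of_abelian` : if the elements of `s` have pairwise commuting lifts and every involution of `S` is conjugate
  into `closure s`, then `EM L`.
-/

set_option autoImplicit false

namespace Cfsg.Agent.H767.EMA

open Subgroup Cfsg.Agent.H277.MI

universe u v

variable {L : Type u} {S : Type v} [Group L] [Group S] {π : L →* S}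

/-- all lifts of `a` and `b` commute -/
def LC (π : L →* S) (a b : S) : Prop := ∀ x y : L, π x = a → π y = b → x * y = y * x

theorem LC.symm {a b : S} (h : LC π a b) : LC π b a := fun x y hx hy => (h y x hy hx).symm

theorem LC.self (hc : π.ker ≤ center L) (a : S) : LC π a a := by
  intro x y hx hy
  have h1 : x⁻¹ * y ∈ π.ker := by rw [MonoidHom.mem_ker, map_mul, map_inv, hx, hy, inv_mul_cancel]
  have h2 := mem_center_iff.1 (hc h1) x
  calc x * y = x * (x * (x⁻¹ * y)) := by group
    _ = x * (x⁻¹ * y * x) := by rw [h2]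
    _ = y * x := by group

theorem LC.one_right (hc : π.ker ≤ center L) (a : S) : LC π a 1 := by
  intro x y _ hy
  exact mem_center_iff.1 (hc (MonoidHom.mem_ker.2 hy)) x

theorem LC.mul (hs : Function.Surjective π) {a b c : S} (h1 : LC π a b) (h2 : LC π a c) : LC π a (b * c) := by
  intro x y hx hy
  obtain ⟨z, hz⟩ := hs b
  have h3 : π (z⁻¹ * y) = c := by rw [map_mul, map_inv, hz, hy, inv_mul_cancel_left]
  have e1 := h1 x z hx hz
  have e2 := h2 x _ hx h3
  calc x * y = (x * z) * (z⁻¹ * y) := by group
    _ = z * (x * (z⁻¹ * y)) := by rw [e1]; group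
    _ = y * x := by rw [e2]; group

theorem LC.inv {a b : S} (h1 : LC π a b) : LC π a b⁻¹ := by
  intro x y hx hy
  have e1 := h1 x y⁻¹ hx (by rw [map_inv, hy, inv_inv])
  calc x * y = y * (y⁻¹ * x) * y := by group
    _ = y * (x * y⁻¹) * y := by rw [e1]
    _ = y * x := by group

theorem LC.of_commutator (hs : Function.Surjective π) (hc : π.ker ≤ center L) {a c d : S} (h1 : c * a = a * c)
    (h2 : d * a = a * d) : LC π a (c * d * c⁻¹ * d⁻¹) := by
  intro x y hx hy
  refine (comm_of_commutator hc (C := centralizer {a}) (t := a) (y := x) (x := y) ?_ hx ?_ hs).symm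
  · intro k hk
    exact mem_centralizer_singleton_iff.1 hk
  · rw [hy]
    exact commutator_mem_commutator (mem_centralizer_singleton_iff.2 h1) (mem_centralizer_singleton_iff.2 h2)

/-- **Abelian preimage.** -/
theorem em_of_abelian (hs : Function.Surjective π) (hc : π.ker ≤ center L) (s : Set S)
    (hcm : ∀ a ∈ s, ∀ b ∈ s, LC π a b) (h : ∀ t : S, orderOf t = 2 → ∃ g : S, g * t * g⁻¹ ∈ closure s) : EM L := by
  have h1 : ∀ a ∈ s, ∀ b ∈ closure s, LC π a b := by
    intro a ha b hb
    induction hb using closure_induction with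
    | mem b hb => exact hcm a ha b hb
    | one => exact LC.one_right hc a
    | mul x y _ _ h1 h2 => exact h1.mul hs h2
    | inv x _ h1 => exact h1.inv
  have h2 : ∀ b ∈ closure s, ∀ a ∈ closure s, LC π b a := by
    intro b hb a ha
    induction ha using closure_induction with
    | mem a ha => exact (h1 a ha b hb).symm
    | one => exact LC.one_right hc b
    | mul x y _ _ h1 h2 => exact h1.mul hs h2
    | inv x _ h1 => exact h1.inv
  refine em_of_commuting {x | π x ∈ closure s ∧ x * x = 1} (fun x hx => hx.2)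
    (fun x hx y hy => h2 _ hx.1 _ hy.1 x y rfl rfl) ?_
  intro t ht
  have htt := sq_of_orderOf ht
  by_cases h3 : π t = 1
  · refine ⟨1, subset_closure ⟨?_, ?_⟩⟩
    · rw [one_mul, inv_one, mul_one, h3]; exact one_mem _
    · rw [one_mul, inv_one, mul_one]; exact htt
  · obtain ⟨g, hg⟩ := h (π t) (orderOf_two h3 (by rw [← map_mul, htt, map_one]))
    obtain ⟨k, rfl⟩ := hs g
    refine ⟨k, subset_closure ⟨?_, ?_⟩⟩
    · rwa [map_mul, map_mul, map_inv]
    · rw [show k * t * k⁻¹ * (k * t * k⁻¹) = k * (t * t) * k⁻¹ by group, htt, mul_one, mul_inv_cancel]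

end Cfsg.Agent.H767.EMA
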