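import Mathlib
import Cfsg.Agent.H767.EM.Ab

/-!
# S2243: commuting lifts of quarter turns (helper767)
-/

set_option autoImplicit false

namespace Cfsg.Agent.H767.EMA

open Subgroup Cfsg.Agent.H277.MI

universe u v w x

section LCV

variable {L : Type u} {S : Type v} {Ω : Type w} {G : Type x} [Group L] [Group S] [Group Ω] [Group G]
  {π : L →* S} {q : Ω →* S} {ψ : Ω →* G}

/-- lifts of elements of `Ω` given by their images in `G` commute -/
def LCV (π : L →* S) (q : Ω →* S) (ψ : Ω →* G) (x y : G) : Prop :=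
  ∀ a b : Ω, ψ a = x → ψ b = y → LC π (q a) (q b)

theorem LCV.symm {x y : G} (h : LCV π q ψ x y) : LCV π q ψ y x := fun a b ha hb => (h b a hb ha).symm

theorem LCV.self (hc : π.ker ≤ center L) (hψ : Function.Injective ψ) (x : G) : LCV π q ψ x x := by
  intro a b ha hb
  obtain rfl : a = b := hψ (ha.trans hb.symm)
  exact LC.self hc _

theorem LCV.mul (hs : Function.Surjective π) {x y z : G} (hy : y ∈ ψ.range) (h1 : LCV π q ψ x y)
    (h2 : LCV π q ψ x z) : LCV π q ψ x (y * z) := by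
  intro a b ha hb
  obtain ⟨c, hc⟩ := hy
  have h3 := (h1 a c ha hc).mul hs (h2 a (c⁻¹ * b) ha (by rw [map_mul, map_inv, hc, hb, inv_mul_cancel_left]))
  rwa [← map_mul, mul_inv_cancel_left] at h3

theorem LCV.comm (hs : Function.Surjective π) (hc : π.ker ≤ center L) (hψ : Function.Injective ψ) {x y c d : G}
    (hcr : c ∈ ψ.range) (hdr : d ∈ ψ.range) (h1 : c * x = x * c) (h2 : d * x = x * d)
    (h3 : c * d * c⁻¹ * d⁻¹ = y) : LCV π q ψ x y := by
  intro a b ha hb
  obtain ⟨c, rfl⟩ := hcr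
  obtain ⟨d, rfl⟩ := hdr
  subst ha
  have h4 : c * a = a * c := hψ (by rw [map_mul, map_mul, h1])
  have h5 : d * a = a * d := hψ (by rw [map_mul, map_mul, h2])
  have h6 : b = c * d * c⁻¹ * d⁻¹ := hψ (by rw [hb, ← h3]; simp only [map_mul, map_inv])
  rw [h6]
  simp only [map_mul, map_inv]
  exact LC.of_commutator hs hc (by rw [← map_mul, h4, map_mul]) (by rw [← map_mul, h5, map_mul])

end LCV

section K

variable {L : Type u} {S : Type v} {Ω : Type w} {G : Type x} [Group L] [Group S] [Group Ω] [Group G]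
  {π : L →* S} {q : Ω →* S} {ψ : Ω →* G} {κ : Type*}

/-- commuting "quarter turns" `J i`, swaps `P i j` and twisted swaps `P' i j` -/
structure Turns (N : Subgroup G) (J : κ → G) (P P' : κ → κ → G) : Prop where
  comm : ∀ i j, J i * J j = J j * J i
  mem : ∀ i j, i ≠ j → J i * J j ∈ N
  memP : ∀ i j, i ≠ j → P i j ∈ N
  memP' : ∀ i j, i ≠ j → P' i j ∈ N
  P1 : ∀ i j, i ≠ j → P i j * J i = J j * P i j
  P3 : ∀ i j l, i ≠ j → l ≠ i → l ≠ j → P i j * J l = J l * P i j
  P1' : ∀ i j, i ≠ j → P' i j * J i = (J j)⁻¹ * P' i j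
  P3' : ∀ i j l, i ≠ j → l ≠ i → l ≠ j → P' i j * J l = J l * P' i j

variable {J : κ → G} {P P' : κ → κ → G}

/-- `J i (J j)⁻¹` is a commutator -/
theorem Turns.e1 {N : Subgroup G} (h : Turns N J P P') {i j k : κ} (hij : i ≠ j) (hki : k ≠ i) (hkj : k ≠ j) :
    (J i * J k) * P i j * (J i * J k)⁻¹ * (P i j)⁻¹ = J i * (J j)⁻¹ := by
  have h1 : SemiconjBy (P i j) (J i) (J j) := h.P1 i j hij
  have h3 : SemiconjBy (P i j) (J k) (J k) := h.P3 i j k hij hki hkj
  have h4 : P i j * (J i * J k)⁻¹ = (J j * J k)⁻¹ * P i j := (h1.mul_right h3).inv_right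
  rw [mul_assoc (J i * J k), h4]
  group

/-- `J i J j` is a commutator -/
theorem Turns.e2 {N : Subgroup G} (h : Turns N J P P') {i j k : κ} (hij : i ≠ j) (hki : k ≠ i) (hkj : k ≠ j) :
    (J i * J k) * P' i j * (J i * J k)⁻¹ * (P' i j)⁻¹ = J i * J j := by
  have h1 : SemiconjBy (P' i j) (J i) (J j)⁻¹ := h.P1' i j hij
  have h3 : SemiconjBy (P' i j) (J k) (J k) := h.P3' i j k hij hki hkj
  have h4 : P' i j * (J i * J k)⁻¹ = ((J j)⁻¹ * J k)⁻¹ * P' i j := (h1.mul_right h3).inv_right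
  rw [mul_assoc (J i * J k), h4]
  group

theorem Turns.sq_eq {N : Subgroup G} (h : Turns N J P P') (i j : κ) :
    (J i * J j) * (J i * (J j)⁻¹) = J i * J i := by
  rw [mul_assoc, ← mul_assoc (J j), h.comm j i]
  group

/-- the lifts of `(J i)²` and `(J j)²` commute -/
theorem Turns.lcv_sq (h : Turns ψ.range J P P') (hs : Function.Surjective π) (hc : π.ker ≤ center L)
    (hψ : Function.Injective ψ) {i j k : κ} (hij : i ≠ j) (hki : k ≠ i) (hkj : k ≠ j) :
    LCV π q ψ (J i * J i) (J j * J j) := by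
  have c1 : (J j * J i) * (J i * J i) = (J i * J i) * (J j * J i) := by
    have h3 : ∀ a b, SemiconjBy (J a) (J b) (J b) := fun a b => h.comm a b
    exact ((h3 j i).mul_right (h3 j i)).mul_left ((h3 i i).mul_right (h3 i i))
  have c2 : P j k * (J i * J i) = (J i * J i) * P j k := by
    have h3 : SemiconjBy (P j k) (J i) (J i) := h.P3 j k i hkj.symm hij hki.symm
    exact h3.mul_right h3
  have c3 : P' j k * (J i * J i) = (J i * J i) * P' j k := by
    have h3 : SemiconjBy (P' j k) (J i) (J i) := h.P3' j k i hkj.symm hij hki.symm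
    exact h3.mul_right h3
  have l1 : LCV π q ψ (J i * J i) (J j * (J k)⁻¹) :=
    LCV.comm hs hc hψ (h.mem j i hij.symm) (h.memP j k hkj.symm) c1 c2 (h.e1 hkj.symm hij hki.symm)
  have l2 : LCV π q ψ (J i * J i) (J j * J k) :=
    LCV.comm hs hc hψ (h.mem j i hij.symm) (h.memP' j k hkj.symm) c1 c3 (h.e2 hkj.symm hij hki.symm)
  have l3 := LCV.mul hs (h.mem j k hkj.symm) l2 l1
  rwa [h.sq_eq] at l3

/-- the lifts of the full turn `JJ` and `(J i)²` commute -/
theorem Turns.lcv_full (h : Turns ψ.range J P P') (hs : Function.Surjective π) (hc : π.ker ≤ center L)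
    (hψ : Function.Injective ψ) {i j k : κ} (hij : i ≠ j) (hki : k ≠ i) (hkj : k ≠ j) {JJ : G}
    (hJ : ∀ l, J l * JJ = JJ * J l) (hP : P i j * JJ = JJ * P i j)
    (hP' : P' i j * ((J i * J j)⁻¹ * JJ) = ((J i * J j)⁻¹ * JJ) * P' i j) : LCV π q ψ JJ (J i * J i) := by
  have s1 : ∀ a b, SemiconjBy (J a * J b) JJ JJ := fun a b =>
    SemiconjBy.mul_left (show SemiconjBy (J a) JJ JJ from hJ a) (show SemiconjBy (J b) JJ JJ from hJ b)
  have l1 : LCV π q ψ JJ (J i * (J j)⁻¹) :=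
    LCV.comm hs hc hψ (h.mem i k hki.symm) (h.memP i j hij) (s1 i k) hP (h.e1 hij hki hkj)
  have c4 : (J i * J k) * ((J i * J j)⁻¹ * JJ) = ((J i * J j)⁻¹ * JJ) * (J i * J k) := by
    have h3 : ∀ a b, SemiconjBy (J a) (J b) (J b) := fun a b => h.comm a b
    have h4 : ∀ a, SemiconjBy (J a) (J i * J j)⁻¹ (J i * J j)⁻¹ := fun a => ((h3 a i).mul_right (h3 a j)).inv_right
    exact ((h4 i).mul_left (h4 k)).mul_right (s1 i k)
  have l2 : LCV π q ψ ((J i * J j)⁻¹ * JJ) (J i * J j) :=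
    LCV.comm hs hc hψ (h.mem i k hki.symm) (h.memP' i j hij) c4 hP' (h.e2 hij hki hkj)
  have l3 : LCV π q ψ (J i * J j) JJ := by
    have := LCV.mul hs (h.mem i j hij) (LCV.self hc hψ (J i * J j)) l2.symm
    rwa [mul_inv_cancel_left] at this
  have l4 := LCV.mul hs (h.mem i j hij) l3.symm l1
  rwa [h.sq_eq] at l4

end K

end Cfsg.Agent.H767.EMA
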